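import Cfsg.Agent.H827.FStar
import Cfsg.Agent.H237.EvenFi
import Cfsg.Agent.R08.X4Gamma_m3
import Cfsg.Prelude.Def_MonsterType
import Cfsg.Agent.S1715
import Cfsg.Agent.SignalizersComponents.FStarPCore
import Cfsg.Agent.FastGrp
import Cfsg.Agent.Prune
set_option linter.all false
prune_inst 0x7ffdfffbfff8fddfffff7e7fffffdffffdfdfffffffffffbfffffbffefdf6f6ffff5fbafffefdafffff7f2beb2f87bfbfffffeffeffffd7ffffffffc7fffffdfffffffaf7df7bc3f1ffe7fffffffffdfffffffffffffffffffffffffffffffffffffffffffff
open scoped Cfsg.Agent.FastGrp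

-- part: H827/PairAbs
section
/-!
# The centralizer of an involution of type `2.Φ.2` (helper827)

`PD Φ t N` : `t` is an involution of `G`, `N ≤ C(t)` is a quasisimple subgroup normal in `C(t)`, with `N / ⟨t⟩ ≅ Φ`,
`C_{C(t)}(N) = ⟨t⟩` and `|C(t) : N| = 2`. Results: `F*(C(t)) = N`, `|C(t) : N| = 2`, and `C(t)/⟨t⟩ ≅ Aut Φ` if
`|Aut Φ| ≤ 2 |Φ|`.
-/

set_option autoImplicit false

namespace Cfsg.Agent.H827.PairAbs

open Subgroup Cfsg

universe u v

/-- the data at an involution with centralizer `2.Φ.2` -/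
structure PD (Φ : Type v) [Group Φ] {G : Type u} [Group G] (t : G) (N : Subgroup G) : Prop where
  tt : t * t = 1
  t1 : t ≠ 1
  le : ∀ x ∈ N, x * t = t * x
  norm : ∀ c, c * t = t * c → ∀ n ∈ N, c * n * c⁻¹ ∈ N
  qs : IsQuasisimple ↥N
  mem : t ∈ N
  cen : ∀ x, x * t = t * x → (∀ n ∈ N, x * n = n * x) → x = 1 ∨ x = t
  swap : ∃ s, s * t = t * s ∧ s ∉ N ∧ ∀ x, x * t = t * x → x ∉ N → s⁻¹ * x ∈ N
  map : ∃ π : ↥N →* Φ, Function.Surjective π ∧ ∀ n, π n = 1 ↔ (n : G) = 1 ∨ (n : G) = t

/-- the restriction of an isomorphism -/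
def comapEquiv {H : Type*} [Group H] {G : Type*} [Group G] (e : H ≃* G) (N : Subgroup G) :
    ↥(N.comap e.toMonoidHom) ≃* ↥N where
  toFun x := ⟨e x, x.2⟩
  invFun y := ⟨e.symm y, by
    show e (e.symm y) ∈ N
    rw [e.apply_symm_apply]
    exact y.2⟩
  left_inv x := Subtype.ext (e.symm_apply_apply _)
  right_inv y := Subtype.ext (e.apply_symm_apply _)
  map_mul' x y := Subtype.ext (map_mul e _ _)

namespace PD

variable {Φ : Type v} [Group Φ] {G : Type u} [Group G] {t : G} {N : Subgroup G} (D : PD Φ t N)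

include D

theorem comap {H : Type*} [Group H] (e : H ≃* G) {t' : H} (ht : e t' = t) : PD Φ t' (N.comap e.toMonoidHom) where
  tt := by
    apply e.injective
    rw [map_mul, ht, D.tt, map_one]
  t1 := by
    rintro rfl
    rw [map_one] at ht
    exact D.t1 ht.symm
  le x hx := by
    apply e.injective
    rw [map_mul, map_mul, ht]
    exact D.le _ hx
  norm c hc n hn := by
    show e (c * n * c⁻¹) ∈ N
    rw [map_mul, map_mul, map_inv]
    apply D.norm _ _ _ hn
    rw [← ht, ← map_mul, hc, map_mul]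
  qs := by
    exact SignalizersComponents.Components.isQuasisimple_of_mulEquiv (comapEquiv e N).symm D.qs
  mem := by
    show e t' ∈ N
    rw [ht]
    exact D.mem
  cen x hx hn := by
    have h1 : e x * t = t * e x := by rw [← ht, ← map_mul, hx, map_mul]
    rcases D.cen (e x) h1 (fun n hn' => by
      have h2 := hn (e.symm n) (by
        show e (e.symm n) ∈ N
        rw [e.apply_symm_apply]
        exact hn')
      have h3 := congrArg e h2
      rwa [map_mul, map_mul, e.apply_symm_apply] at h3) with h | h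
    · left
      apply e.injective
      rw [h, map_one]
    · right
      apply e.injective
      rw [h, ht]
  swap := by
    obtain ⟨s, h1, h2, h3⟩ := D.swap
    refine ⟨e.symm s, ?_, ?_, ?_⟩
    · apply e.injective
      rw [map_mul, map_mul, e.apply_symm_apply, ht, h1]
    · intro h
      have h' : e (e.symm s) ∈ N := h
      rw [e.apply_symm_apply] at h'
      exact h2 h'
    · intro x hx hn
      show e ((e.symm s)⁻¹ * x) ∈ N
      rw [map_mul, map_inv, e.apply_symm_apply]
      exact h3 _ (by rw [← ht, ← map_mul, hx, map_mul]) hn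
  map := by
    obtain ⟨π, h1, h2⟩ := D.map
    let f : ↥(N.comap e.toMonoidHom) →* ↥N := (e.toMonoidHom.subgroupComap N)
    have hf : ∀ n : ↥(N.comap e.toMonoidHom), (f n : G) = e n := fun _ => rfl
    refine ⟨π.comp f, ?_, ?_⟩
    · intro y
      obtain ⟨n, rfl⟩ := h1 y
      refine ⟨⟨e.symm n, ?_⟩, ?_⟩
      · show e (e.symm n) ∈ N
        rw [e.apply_symm_apply]
        exact n.2
      · show π _ = π _
        congr 1
        apply Subtype.ext
        rw [hf]
        exact e.apply_symm_apply _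
    · intro n
      show π (f n) = 1 ↔ _
      rw [h2, hf, ← ht]
      constructor
      · rintro (h | h)
        · left; apply e.injective; rw [h, map_one]
        · right; exact e.injective h
      · rintro (h | h)
        · left; rw [h, map_one]
        · right; rw [h]

theorem N_le : N ≤ centralizer ({t} : Set G) := fun x hx => mem_centralizer_singleton_iff.2 (D.le x hx)

omit [Group Φ] D in
theorem t_mem : t ∈ centralizer ({t} : Set G) := mem_centralizer_singleton_iff.2 rfl

/-- `N` inside the centralizer -/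
theorem sub_normal : (N.subgroupOf (centralizer ({t} : Set G))).Normal := by
  constructor
  intro n hn c
  rw [mem_subgroupOf] at hn ⊢
  exact D.norm _ (mem_centralizer_singleton_iff.1 c.2) _ hn

theorem sub_index : (N.subgroupOf (centralizer ({t} : Set G))).index = 2 := by
  obtain ⟨s, h1, h2, h3⟩ := D.swap
  rw [index_eq_two_iff]
  refine ⟨⟨s, mem_centralizer_singleton_iff.2 h1⟩⁻¹, fun b => ?_⟩
  have hb := mem_centralizer_singleton_iff.1 b.2
  by_cases hbN : (b : G) ∈ N
  · right
    refine ⟨hbN, fun h => h2 ?_⟩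
    rw [mem_subgroupOf] at h
    have h' : (b : G) * s⁻¹ ∈ N := h
    have := N.mul_mem (N.inv_mem h') hbN
    rwa [mul_inv_rev, inv_inv, mul_assoc, inv_mul_cancel, mul_one] at this
  · left
    refine ⟨?_, hbN⟩
    rw [mem_subgroupOf]
    show (b : G) * s⁻¹ ∈ N
    have h4 := h3 b hb hbN
    have h5 := D.norm b hb _ (N.inv_mem h4)
    -- b (b⁻¹ s) b⁻¹ = s b⁻¹
    have h6 := N.inv_mem h5
    have h7 : (b * (s⁻¹ * (b : G))⁻¹ * (b : G)⁻¹)⁻¹ = b * s⁻¹ := by group
    rwa [h7] at h6

theorem sub_qs : IsQuasisimple ↥(N.subgroupOf (centralizer ({t} : Set G))) :=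
  SignalizersComponents.Components.isQuasisimple_of_mulEquiv (subgroupOfEquivOfLe D.N_le).symm D.qs

theorem sub_cen : centralizer ((N.subgroupOf (centralizer ({t} : Set G)) :
    Subgroup ↥(centralizer ({t} : Set G))) : Set ↥(centralizer ({t} : Set G))) ≤
      N.subgroupOf (centralizer ({t} : Set G)) := by
  intro x hx
  rw [mem_subgroupOf]
  rcases D.cen x (mem_centralizer_singleton_iff.1 x.2) (fun n hn => by
    have h1 := mem_centralizer_iff.1 hx ⟨n, D.N_le hn⟩ hn
    exact (congrArg Subtype.val h1).symm) with h | h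
  · rw [h]; exact N.one_mem
  · rw [h]; exact D.mem

/-- `F*(C(t)) = N` -/
theorem fstar : generalizedFittingSubgroup ↥(centralizer ({t} : Set G)) = N.subgroupOf (centralizer ({t} : Set G)) :=
  FStar.fstar_eq D.sub_normal D.sub_qs D.sub_cen

theorem mem_zpowers {x : G} : x ∈ zpowers t ↔ x = 1 ∨ x = t := by
  constructor
  · rintro ⟨k, rfl⟩
    rcases Int.even_or_odd' k with ⟨m, h | h⟩
    · left
      show t ^ k = 1
      rw [h, zpow_mul, zpow_ofNat, pow_two, D.tt, one_zpow]
    · right
      show t ^ k = t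
      rw [h, zpow_add, zpow_mul, zpow_ofNat, pow_two, D.tt, one_zpow, one_mul, zpow_one]
  · rintro (rfl | rfl)
    · exact one_mem _
    · exact mem_zpowers _

theorem card_zpowers : Nat.card ↥((zpowers t).subgroupOf (centralizer ({t} : Set G))) = 2 := by
  have h1 : zpowers t ≤ centralizer ({t} : Set G) := by
    rw [zpowers_le]
    exact t_mem
  rw [Nat.card_congr (subgroupOfEquivOfLe h1).toEquiv, Nat.card_zpowers]
  exact orderOf_eq_prime (by rw [pow_two, D.tt]) D.t1

/-- **`C(t)/⟨t⟩ ≅ Aut Φ`** -/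
theorem quo [Finite G] [Finite Φ] (hΦ : Nat.card (MulAut Φ) ≤ 2 * Nat.card Φ)
    [hn : ((zpowers t).subgroupOf (centralizer ({t} : Set G))).Normal] :
    Nonempty (↥(centralizer ({t} : Set G)) ⧸ (zpowers t).subgroupOf (centralizer ({t} : Set G)) ≃* MulAut Φ) := by
  obtain ⟨π, h1, h2⟩ := D.map
  have hnN := D.sub_normal
  let f : ↥(N.subgroupOf (centralizer ({t} : Set G))) ≃* ↥N := subgroupOfEquivOfLe D.N_le
  have hs : Function.Surjective (π.comp f.toMonoidHom) := by
    intro y
    obtain ⟨n, rfl⟩ := h1 y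
    refine ⟨f.symm n, ?_⟩
    show π (f (f.symm n)) = _
    rw [f.apply_symm_apply]
  have hcard : Nat.card ↥(N.subgroupOf (centralizer ({t} : Set G))) = 2 * Nat.card Φ := by
    rw [Nat.card_congr f.toEquiv]
    have h3 : Nat.card ↥N = Nat.card ↥π.ker * π.ker.index := (card_mul_index _).symm
    rw [index_ker, MonoidHom.range_eq_top.2 h1, Nat.card_congr topEquiv.toEquiv] at h3
    rw [h3]
    congr 1
    have h4 : π.ker = (zpowers t).subgroupOf N := by
      ext n
      rw [MonoidHom.mem_ker, h2, mem_subgroupOf, D.mem_zpowers]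
    have h5 : zpowers t ≤ N := by
      rw [zpowers_le]
      exact D.mem
    rw [h4, Nat.card_congr (subgroupOfEquivOfLe h5).toEquiv, Nat.card_zpowers]
    exact orderOf_eq_prime (by rw [pow_two, D.tt]) D.t1
  apply FStar.mulAut_equiv (Z := (zpowers t).subgroupOf (centralizer ({t} : Set G)))
    (N := N.subgroupOf (centralizer ({t} : Set G))) (π.comp f.toMonoidHom) hs
  · intro n
    show π (f n) = 1 ↔ _
    rw [h2, mem_subgroupOf, D.mem_zpowers]
    rfl
  · exact D.sub_qs.1
  · intro z hz n _
    rw [mem_subgroupOf, D.mem_zpowers] at hz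
    apply Subtype.ext
    show (z : G) * n = n * z
    rcases hz with h | h
    · rw [h, one_mul, mul_one]
    · rw [h]; exact (mem_centralizer_singleton_iff.1 n.2).symm
  · intro x hx
    rw [mem_subgroupOf, D.mem_zpowers]
    exact D.cen x (mem_centralizer_singleton_iff.1 x.2) fun n hn =>
      congrArg Subtype.val (hx ⟨n, D.N_le hn⟩ hn)
  · have h6 := card_mul_index (N.subgroupOf (centralizer ({t} : Set G)))
    have h7 := card_mul_index ((zpowers t).subgroupOf (centralizer ({t} : Set G)))
    rw [D.sub_index, hcard] at h6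
    rw [D.card_zpowers] at h7
    have h8 : ((zpowers t).subgroupOf (centralizer ({t} : Set G))).index = 2 * Nat.card Φ := by omega
    rw [h8]
    exact hΦ

end PD

end Cfsg.Agent.H827.PairAbs
end

-- part: H827/Pair
section
/-!
# The centralizer in `Fi24'` of a product of two commuting transpositions (helper827)

* `pd` : `PD Fi22 t (N a b)` for `t = a b`, where `N a b = C(a) ∩ C(b) ∩ Fi24'`;
* `card_mulAut` : `|Aut Fi22| ≤ 2 |Fi22|`.
-/

set_option autoImplicit false

namespace Cfsg.Agent.H827.Pair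

open Cfsg Cfsg.Spor Cfsg.Agent.R01 Cfsg.Agent.R08 Cfsg.Agent.R08.FiTwentyFour Cfsg.Agent.CTwoTab.FiTF
open Cfsg.Agent.H827.PairAbs
open Subgroup

local notation "Pr" => Cfsg.Agent.R08.TetFi24A.At

theorem exists_nb {a b : Fi24} (P : Pr a b) : ∃ c, TetFi24A.Nb a b c := by
  have h1 : (Fi22Facts.T : Set Fi22).Nonempty := by
    rw [Set.nonempty_iff_ne_empty]
    intro h
    have h2 := Fi22Facts.ncard_T
    rw [h, Set.ncard_empty] at h2
    exact absurd h2 (by norm_num)
  obtain ⟨t, ht⟩ := h1
  obtain ⟨c, hc, -⟩ := P.exists_x ht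
  exact ⟨c, hc⟩

/-- **The data at a pair** -/
theorem pd {a b : Fi24} (P : Pr a b) {t : Spor.Fi24'} (ht : (t : Fi24) = a * b) : PD Fi22 t (N a b) := by
  have aa : a * a = 1 := FiTwentyFour.sq P.ha
  have bb : b * b = 1 := FiTwentyFour.sq P.hb
  have hab : a * b = b * a := P.ab.eq
  have ht1 : t ≠ 1 := by
    rintro rfl
    have h1 : a * b = 1 := ht.symm
    exact P.ne (mul_right_cancel (h1.trans bb.symm))
  have hsw : ∀ x : Spor.Fi24', x * t = t * x →
      ((x : Fi24) * a * (x : Fi24)⁻¹ = a ∧ (x : Fi24) * b * (x : Fi24)⁻¹ = b) ∨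
      ((x : Fi24) * a * (x : Fi24)⁻¹ = b ∧ (x : Fi24) * b * (x : Fi24)⁻¹ = a) := fun x hx =>
    fix_or_swap P ht (mem_centralizer_singleton_iff.2 hx)
  have hN : ∀ x : Spor.Fi24', x ∈ N a b ↔
      ((x : Fi24) * a * (x : Fi24)⁻¹ = a ∧ (x : Fi24) * b * (x : Fi24)⁻¹ = b) := by
    intro x
    rw [mem_N, mem_Cab, mul_inv_eq_iff_eq_mul, mul_inv_eq_iff_eq_mul]
    constructor
    · exact fun h => h.2
    · exact fun h => ⟨mem_commutator_iff.1 x.2, h⟩
  have hmul : ∀ x y : Spor.Fi24', ∀ u : Fi24, ((x * y : Spor.Fi24') : Fi24) * u * ((x * y : Spor.Fi24') : Fi24)⁻¹ =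
      (x : Fi24) * ((y : Fi24) * u * (y : Fi24)⁻¹) * (x : Fi24)⁻¹ := by
    intro x y u
    rw [Subgroup.coe_mul]
    group
  have hinv : ∀ x : Spor.Fi24', ∀ u v : Fi24, (x : Fi24) * u * (x : Fi24)⁻¹ = v →
      ((x⁻¹ : Spor.Fi24') : Fi24) * v * ((x⁻¹ : Spor.Fi24') : Fi24)⁻¹ = u := by
    intro x u v h
    rw [← h, Subgroup.coe_inv]
    group
  refine ⟨?_, ht1, ?_, ?_, qs_N P, ?_, ?_, ?_, ?_⟩
  · apply Subtype.ext
    show (t : Fi24) * (t : Fi24) = 1
    rw [ht]
    calc a * b * (a * b) = a * (b * a) * b := by group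
      _ = a * (a * b) * b := by rw [hab]
      _ = (a * a) * (b * b) := by group
      _ = 1 := by rw [aa, bb, one_mul]
  · exact fun x hx => mem_centralizer_singleton_iff.1 (N_le ht hx)
  · intro c hc n hn
    have h1 := (hN n).1 hn
    rw [hN, hmul, hmul, hmul, hmul]
    rcases hsw c hc with ⟨h2, h3⟩ | ⟨h2, h3⟩
    · rw [hinv c _ _ h2, hinv c _ _ h3, h1.1, h1.2]
      exact ⟨h2, h3⟩
    · rw [hinv c _ _ h2, hinv c _ _ h3, h1.1, h1.2]
      exact ⟨h3, h2⟩
  · rw [hN, ht]
    constructor
    · calc a * b * a * (a * b)⁻¹ = a * (b * a) * (b⁻¹ * a⁻¹) := by group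
        _ = a * (a * b) * (b⁻¹ * a⁻¹) := by rw [hab]
        _ = a := by group
    · calc a * b * b * (a * b)⁻¹ = a * b * a⁻¹ := by group
        _ = b * a * a⁻¹ := by rw [hab]
        _ = b := by group
  · intro x hx hc
    have hxN : x ∈ N a b := by
      rcases hsw x hx with h | ⟨h1, h2⟩
      · exact (hN x).2 h
      · exfalso
        obtain ⟨c, hc1⟩ := exists_nb P
        have h3 := (P.x hc1).2
        have h4 : (⟨a * c, Cab_le h3⟩ : Spor.Fi24') ∈ N a b := mem_N.2 h3
        have h5 := congrArg Subtype.val (hc _ h4)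
        have h6 : (x : Fi24) * (a * c) = a * c * x := h5
        -- the transposition `c' = x c x⁻¹`
        have h7 : b * ((x : Fi24) * c * (x : Fi24)⁻¹) = a * c := by
          calc b * ((x : Fi24) * c * (x : Fi24)⁻¹)
              = ((x : Fi24) * a * (x : Fi24)⁻¹) * ((x : Fi24) * c * (x : Fi24)⁻¹) := by rw [h1]
            _ = (x : Fi24) * (a * c) * (x : Fi24)⁻¹ := by group
            _ = a * c := by rw [h6]; group
        have hcL := FiTwentyFour.conj hc1.hc (x : Fi24)
        generalize (x : Fi24) * c * (x : Fi24)⁻¹ = c' at h7 hcL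
        have hac : a * c = c * a := hc1.ca.eq.symm
        have hbc : b * c = c * b := hc1.cb.eq.symm
        have cc : c * c = 1 := FiTwentyFour.sq hc1.hc
        have h8 : c' = b * (a * c) := by
          rw [← h7, ← mul_assoc, bb, one_mul]
        have h9 : c' * c' = 1 := FiTwentyFour.sq hcL
        have h10 : a * b = c * c' := by
          rw [h8]
          calc a * b = b * a := hab
            _ = b * a * (c * c) := by rw [cc, mul_one]
            _ = b * (a * c) * c := by group
            _ = b * (c * a) * c := by rw [hac]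
            _ = (b * c) * (a * c) := by group
            _ = (c * b) * (a * c) := by rw [hbc]
            _ = c * (b * (a * c)) := by group
        have hne1 : a ≠ c' := by
          intro h
          apply hc1.nb
          -- a = b a c, so c = a b a = b
          rw [← h] at h10
          have : c = a * b * a := by
            rw [h10, mul_assoc, aa, mul_one]
          rw [this, hab, mul_assoc, aa, mul_one]
        have hne2 : b ≠ c' := by
          intro h
          apply hc1.na
          rw [← h] at h10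
          exact (mul_right_cancel h10).symm
        have hne3 : c ≠ c' := by
          intro h
          rw [← h, cc] at h10
          exact P.ne (mul_right_cancel (h10.trans bb.symm))
        have hca' : Commute a c' := by
          show a * c' = c' * a
          rw [h8]
          calc a * (b * (a * c)) = (a * b) * (a * c) := by group
            _ = (b * a) * (a * c) := by rw [hab]
            _ = b * a * (c * a) := by rw [hac]
            _ = _ := by group
        have hcb' : Commute b c' := by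
          show b * c' = c' * b
          rw [h8]
          calc b * (b * (a * c)) = b * (b * a * c) := by group
            _ = b * (a * b * c) := by rw [hab]
            _ = b * a * (b * c) := by group
            _ = b * a * (c * b) := by rw [hbc]
            _ = _ := by group
        exact TetFi24A.four P.ha P.hb hc1.hc hcL P.ne hc1.na.symm hne1 hc1.nb.symm hne2 hne3 P.ab
          hc1.ca.symm hca' hc1.cb.symm hcb' h10
    have h2 : (⟨x, mem_N.1 hxN⟩ : ↥(Cab a b)) ∈ center ↥(Cab a b) := by
      rw [mem_center_iff]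
      intro g
      apply Subtype.ext
      have h3 : (⟨(g : Fi24), Cab_le g.2⟩ : Spor.Fi24') ∈ N a b := mem_N.2 g.2
      exact (congrArg Subtype.val (hc _ h3)).symm
    have h3 := (CTwoTab.ker_eq_center P.lift.ext.surj center_Fi22 (ker_le P)).symm ▸ h2
    rw [MonoidHom.mem_ker, P.lift.ext.ker] at h3
    rcases h3 with h | h
    · left
      apply Subtype.ext
      have h4 : (x : Fi24) = 1 := congrArg (Subtype.val : ↥(Cab a b) → Fi24) h
      exact h4
    · right
      apply Subtype.ext
      have h4 := congrArg (Subtype.val : ↥(Cab a b) → Fi24) h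
      rw [P.hz, ← ht] at h4
      exact h4
  · obtain ⟨g, hg, h1, h2⟩ := FiTwentyFour.trans2 P.ha P.hb P.hb P.ha P.ne P.ab P.ne.symm P.ab.symm
    refine ⟨⟨g, hg⟩, ?_, ?_, ?_⟩
    · apply Subtype.ext
      show g * (t : Fi24) = (t : Fi24) * g
      rw [ht, ← mul_inv_eq_iff_eq_mul]
      calc g * (a * b) * g⁻¹ = (g * a * g⁻¹) * (g * b * g⁻¹) := by group
        _ = b * a := by rw [h1, h2]
        _ = a * b := hab.symm
    · intro h
      have h3 := ((hN _).1 h).1
      exact P.ne (h3.symm.trans h1)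
    · intro x hx hxN
      rw [hN, hmul, hmul]
      rcases hsw x hx with h | ⟨h3, h4⟩
      · exact absurd ((hN x).2 h) hxN
      · rw [h3, h4]
        exact ⟨hinv ⟨g, hg⟩ _ _ h1, hinv ⟨g, hg⟩ _ _ h2⟩
  · refine ⟨P.π.comp (eN a b).toMonoidHom, ?_, ?_⟩
    · intro y
      obtain ⟨n, rfl⟩ := P.lift.ext.surj y
      refine ⟨(eN a b).symm n, ?_⟩
      show P.π (eN a b ((eN a b).symm n)) = _
      rw [MulEquiv.apply_symm_apply]
    · intro n
      show P.π (eN a b n) = 1 ↔ _
      rw [P.lift.ext.ker]
      constructor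
      · rintro (h | h)
        · left
          apply Subtype.ext
          have h4 : ((n : Spor.Fi24') : Fi24) = 1 := congrArg (Subtype.val : ↥(Cab a b) → Fi24) h
          exact h4
        · right
          apply Subtype.ext
          have h4 := congrArg (Subtype.val : ↥(Cab a b) → Fi24) h
          rw [P.hz, ← ht] at h4
          exact h4
      · rintro (h | h)
        · left
          apply Subtype.ext
          have h4 : ((n : Spor.Fi24') : Fi24) = 1 := congrArg (Subtype.val : Spor.Fi24' → Fi24) h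
          exact h4
        · right
          apply Subtype.ext
          rw [P.hz, ← ht]
          exact congrArg (Subtype.val : Spor.Fi24' → Fi24) h

/-- `|Aut Fi22| ≤ 2 |Fi22|` -/
theorem card_mulAut : Nat.card (MulAut Fi22) ≤ 2 * Nat.card Fi22 := by
  have h1 : (MulAut.conj : Fi22 →* MulAut Fi22).range.index ≤ 2 := by
    by_cases htop : (MulAut.conj : Fi22 →* MulAut Fi22).range = ⊤
    · rw [htop, index_top]
      norm_num
    · obtain ⟨α, hα⟩ : ∃ α, α ∉ (MulAut.conj : Fi22 →* MulAut Fi22).range := by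
        by_contra hcon
        push Not at hcon
        exact htop (eq_top_iff.2 fun x _ => hcon x)
      apply le_of_eq
      rw [index_eq_two_iff]
      refine ⟨α, fun β => ?_⟩
      by_cases hβ : β ∈ (MulAut.conj : Fi22 →* MulAut Fi22).range
      · right
        refine ⟨hβ, fun h => hα ?_⟩
        have h3 := mul_mem (inv_mem hβ) h
        rwa [inv_mul_cancel_left] at h3
      · left
        obtain ⟨x, hx⟩ := OddHalf.Table.OutFi22.mul_outer β α (fun x h => hβ ⟨x, h.symm⟩)
          (fun x h => hα ⟨x, h.symm⟩)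
        exact ⟨⟨x, hx.symm⟩, hβ⟩
  have h2 := card_mul_index (MulAut.conj : Fi22 →* MulAut Fi22).range
  have h3 : Nat.card ↥(MulAut.conj : Fi22 →* MulAut Fi22).range ≤ Nat.card Fi22 := by
    have : Finite Fi22 := Nat.finite_of_card_ne_zero (by rw [Cfsg.Agent.S1696.result.2]; norm_num)
    exact Nat.card_le_card_of_surjective _ (MonoidHom.rangeRestrict_surjective (MulAut.conj : Fi22 →* MulAut Fi22))
  calc Nat.card (MulAut Fi22) = _ := h2.symm
    _ ≤ Nat.card Fi22 * 2 := Nat.mul_le_mul h3 h1
    _ = 2 * Nat.card Fi22 := mul_comm _ _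

end Cfsg.Agent.H827.Pair
end

-- part: H827/Bridge
section
/-!
# Groups of large Fischer type: the isomorphism with `Fi24'` (helper827)

`exists_equiv` : if `G` is of large Fischer type at `(z, Q)` then there is an isomorphism `e : G ≃* Fi24'` with
`e z = z0`, and `Q` is the preimage of `R0 = O₂(C(z0))`.
`pd_of_not_conj` : for an involution `t` not conjugate to `z`, `e t` is the product of two commuting transpositions;
`PD Fi22 t N`.
-/

set_option autoImplicit false

namespace Cfsg.Agent.H827.Bridge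

open Cfsg Cfsg.Spor Cfsg.Agent.R08 Cfsg.Agent.R08.FiTwentyFour Cfsg.Agent.CTwoTab.FiTF
open Cfsg.Agent.H827.PairAbs
open Subgroup

local notation "Pr" => Cfsg.Agent.R08.TetFi24A.At

variable {G : Type*} [Group G] [Finite G] {z : G}

/-- `F*(C(z))` for `e z = z0` -/
theorem fstar_z0 (e : G ≃* Spor.Fi24') (hz : e z = z0) :
    generalizedFittingSubgroup ↥(centralizer ({z} : Set G)) = pCore 2 ↥(centralizer ({z} : Set G)) ∧
    (R0.comap e.toMonoidHom).subgroupOf (centralizer ({z} : Set G)) ≤ pCore 2 ↥(centralizer ({z} : Set G)) ∧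
    Nat.card ↥((R0.comap e.toMonoidHom).subgroupOf (centralizer ({z} : Set G))) = 2 ^ 13 := by
  have hfact : Fact (Nat.Prime 2) := ⟨Nat.prime_two⟩
  have hcz : ∀ c : G, c ∈ centralizer ({z} : Set G) ↔ e c ∈ centralizer ({z0} : Set Spor.Fi24') := by
    intro c
    rw [mem_centralizer_singleton_iff, mem_centralizer_singleton_iff, ← hz, ← map_mul, ← map_mul]
    exact e.injective.eq_iff.symm
  have hle : R0.comap e.toMonoidHom ≤ centralizer ({z} : Set G) := fun x hx => (hcz x).2 (R0_le hx)
  have hcard : Nat.card ↥((R0.comap e.toMonoidHom).subgroupOf (centralizer ({z} : Set G))) = 2 ^ 13 := by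
    rw [Nat.card_congr (subgroupOfEquivOfLe hle).toEquiv, Nat.card_congr (comapEquiv e R0).toEquiv, R0_card]
  have hn : ((R0.comap e.toMonoidHom).subgroupOf (centralizer ({z} : Set G))).Normal := by
    constructor
    intro n hn c
    rw [mem_subgroupOf] at hn ⊢
    show e ((c : G) * (n : G) * (c : G)⁻¹) ∈ R0
    rw [map_mul, map_mul, map_inv]
    exact R0_norm _ ((hcz c).1 c.2) _ hn
  have hp : IsPGroup 2 ↥((R0.comap e.toMonoidHom).subgroupOf (centralizer ({z} : Set G))) := IsPGroup.of_card hcard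
  have hc : centralizer ((((R0.comap e.toMonoidHom).subgroupOf (centralizer ({z} : Set G))) :
      Subgroup ↥(centralizer ({z} : Set G))) : Set ↥(centralizer ({z} : Set G))) ≤
      (R0.comap e.toMonoidHom).subgroupOf (centralizer ({z} : Set G)) := by
    intro x hx
    rw [mem_subgroupOf]
    show e (x : G) ∈ R0
    rcases R0_cent (e (x : G)) (fun r hr => by
      have h1 : e.symm r ∈ centralizer ({z} : Set G) := by
        rw [hcz, e.apply_symm_apply]
        exact R0_le hr
      have h2 := mem_centralizer_iff.1 hx ⟨e.symm r, h1⟩ (by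
        show e (e.symm r) ∈ R0
        rw [e.apply_symm_apply]
        exact hr)
      have h3 : e (e.symm r * (x : G)) = e ((x : G) * e.symm r) := congrArg (fun y : ↥(centralizer ({z} : Set G)) => e (y : G)) h2
      rw [map_mul, map_mul, e.apply_symm_apply] at h3
      exact h3.symm) with h | h
    · rw [h]; exact one_mem _
    · rw [h]; exact z0_mem
  exact ⟨SignalizersComponents.FStarPCore.generalizedFitting_eq_pCore_of_centralizer_le hn hp hc,
    Lib.Cores.le_pCore hn hp, hcard⟩

/-- a pair is not conjugate to `z0` -/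
theorem not_pair {H : Type*} [Group H] [Finite H] (e : H ≃* Spor.Fi24') {t : H} {N : Subgroup H} (D : PD Fi22 t N) :
    e t ≠ z0 := by
  intro h
  have h1 := (fstar_z0 e h).1
  rw [D.fstar] at h1
  have h2 : IsPGroup 2 ↥(pCore 2 ↥(centralizer ({t} : Set H))) := (Lib.Cores.le_pCore_iff
    (Lib.Cores.pCore_normal (G := ↥(centralizer ({t} : Set H))) 2)).1 le_rfl
  have hfact : Fact (Nat.Prime 2) := ⟨Nat.prime_two⟩
  rw [← h1] at h2
  have h3 := h2.isNilpotent
  exact SignalizersComponents.Components.quasisimple_not_isSolvable D.sub_qs inferInstance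

/-- a pair is not conjugate to `z` -/
theorem not_isConj (e : G ≃* Spor.Fi24') (hz : e z = z0) {t : G} {N : Subgroup G} (D : PD Fi22 t N) :
    ¬ IsConj z t := by
  intro h
  obtain ⟨c, hc⟩ := isConj_iff.1 h
  refine not_pair ((MulAut.conj c⁻¹).trans e) D ?_
  show e (c⁻¹ * t * c⁻¹⁻¹) = z0
  rw [← hz, ← hc]
  congr 1
  group

/-- a pair of transpositions is not conjugate to `z` -/
theorem not_isConj_pair (e : G ≃* Spor.Fi24') (hz : e z = z0) {t : G} {a b : Fi24} (ha : a ∈ L) (hb : b ∈ L)
    (hne : a ≠ b) (hab : Commute a b) (ht : ((e t : Spor.Fi24') : Fi24) = a * b) : ¬ IsConj z t := by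
  obtain ⟨P⟩ := TetFi24A.exists_at ha hb hne hab
  exact not_isConj e hz ((Pair.pd P ht).comap e rfl)

variable {Q : Subgroup (Subgroup.centralizer ({z} : Set G))} [Q.Normal]

/-- **The isomorphism** -/
theorem exists_equiv (hF : IsOfLargeFischerTypeAt z Q) : ∃ e : G ≃* Spor.Fi24', e z = z0 ∧
    ∀ x : ↥(centralizer ({z} : Set G)), x ∈ Q ↔ e x ∈ R0 := by
  obtain ⟨⟨h1, h2, h3, h4, h5⟩, N, M, hN, hM, hQN, hNM, hNc, ⟨K, i1, i2, hK, ⟨e⟩⟩, hMi⟩ := hF
  obtain ⟨e0⟩ := Cfsg.Agent.S1715.result z h1 Q N M h2 h3 h4 hQN hNM hNc K hK e hMi h5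
  have ho : orderOf (e0 z) = 2 := by rw [MulEquiv.orderOf_eq, h1]
  have hQp : IsPGroup 2 ↥Q := IsPGroup.of_card h4
  rcases classes (e0 z) ho with ⟨a, b, P, h⟩ | ⟨g, hg⟩
  · exfalso
    have D := (Pair.pd P h).comap e0 (t' := z) rfl
    have h6 := D.fstar
    rw [h2] at h6
    have hfact : Fact (Nat.Prime 2) := ⟨Nat.prime_two⟩
    rw [h6] at hQp
    have h7 := hQp.isNilpotent
    exact SignalizersComponents.Components.quasisimple_not_isSolvable D.sub_qs inferInstance
  · have hz : (e0.trans (MulAut.conj g⁻¹)) z = z0 := by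
      show g⁻¹ * e0 z * g⁻¹⁻¹ = z0
      rw [hg]
      group
    refine ⟨e0.trans (MulAut.conj g⁻¹), hz, ?_⟩
    obtain ⟨h6, h7, h8⟩ := fstar_z0 (e0.trans (MulAut.conj g⁻¹)) hz
    rw [h2] at h6
    rw [← h6] at h7
    have h9 := Subgroup.eq_of_le_of_card_ge h7 (by rw [h4, h8])
    intro x
    rw [← h9, mem_subgroupOf]
    rfl

omit [Finite G] in
/-- an involution not conjugate to `z0` is a pair -/
theorem pd_of_not_conj (e : G ≃* Spor.Fi24') (hz : e z = z0) {t : G} (ht : orderOf t = 2) (hn : ¬ IsConj z t) :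
    ∃ a b : Fi24, ∃ _ : Pr a b, ((e t : Spor.Fi24') : Fi24) = a * b ∧
      PD Fi22 t ((N a b).comap e.toMonoidHom) := by
  have ho : orderOf (e t) = 2 := by rw [MulEquiv.orderOf_eq, ht]
  rcases classes (e t) ho with ⟨a, b, P, h⟩ | ⟨g, hg⟩
  · exact ⟨a, b, P, h, (Pair.pd P h).comap e rfl⟩
  · exfalso
    apply hn
    rw [isConj_iff]
    refine ⟨e.symm g, ?_⟩
    apply e.injective
    rw [map_mul, map_mul, map_inv, e.apply_symm_apply, hz, hg]

end Cfsg.Agent.H827.Bridge
end
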